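import Mathlib

/-! The group of lifts of a group action on a graph to its universal cover, inside `FreeGroup E ⋊ Γ`. -/

set_option autoImplicit false

namespace Cfsg.Agent.LSt
open FreeGroup hiding map_mul map_one map_inv IsReduced
open SemidirectProduct

variable {Γ E V : Type*}

/-- `L` is a path from `a` to `b`; `st x` is the start of the signed edge `x`. -/
def Path (st : E × Bool → V) : V → List (E × Bool) → V → Prop
  | a, [], b => a = b
  | a, x :: L, b => a = st x ∧ Path st (st (x.1, !x.2)) L b

variable {st : E × Bool → V}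

theorem path_append {L M : List (E × Bool)} : ∀ {a c : V},
    Path st a (L ++ M) c ↔ ∃ b, Path st a L b ∧ Path st b M c := by
  induction L with
  | nil => intro a c; simp [Path]
  | cons x L ih =>
    intro a c
    simp only [List.cons_append, Path, ih]
    exact ⟨fun ⟨h, b, h1, h2⟩ => ⟨b, ⟨h, h1⟩, h2⟩, fun ⟨b, ⟨h, h1⟩, h2⟩ => ⟨h, b, h1, h2⟩⟩

theorem path_invRev {L : List (E × Bool)} : ∀ {a b : V}, Path st a L b → Path st b (invRev L) a := by
  induction L with
  | nil => intro a b h; exact Eq.symm h
  | cons x L ih =>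
    rintro a b ⟨h1, h2⟩
    rw [invRev_cons, path_append]
    refine ⟨_, ih h2, ?_⟩
    simp [invRev, Path, h1]

theorem path_step {L M : List (E × Bool)} (h : Red.Step L M) {a b : V} (p : Path st a L b) : Path st a M b := by
  cases h with
  | @not L1 L2 x s =>
    rw [path_append] at p ⊢
    obtain ⟨c, p1, rfl, -, p2⟩ := p
    exact ⟨_, p1, by simpa using p2⟩

theorem path_red {L M : List (E × Bool)} (h : Red L M) {a b : V} (p : Path st a L b) : Path st a M b := by
  induction h with
  | refl => exact p
  | tail _ s ih => exact path_step s ih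

variable [Group Γ] [MulAction Γ E] [MulAction Γ V]

def sm (γ : Γ) (x : E × Bool) : E × Bool := (γ • x.1, x.2)

theorem path_smul (hst : ∀ (γ : Γ) x, st (sm γ x) = γ • st x) (γ : Γ) {L : List (E × Bool)} :
    ∀ {a b : V}, Path st a L b → Path st (γ • a) (L.map (sm γ)) (γ • b) := by
  induction L with
  | nil => intro a b h; exact congrArg _ h
  | cons x L ih =>
    rintro a b ⟨h1, h2⟩
    refine ⟨by rw [h1, hst], ?_⟩
    have := ih h2
    rwa [← hst] at this

variable (Γ E) in
def act : Γ →* MulAut (FreeGroup E) where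
  toFun γ := freeGroupCongr (MulAction.toPerm γ)
  map_one' := by
    refine MulEquiv.toMonoidHom_injective (ext_hom _ _ fun a => ?_)
    simp [freeGroupCongr]
  map_mul' g h := by
    refine MulEquiv.toMonoidHom_injective (ext_hom _ _ fun a => ?_)
    simp [freeGroupCongr, mul_smul]

theorem act_mk (γ : Γ) (L : List (E × Bool)) : act Γ E γ (mk L) = mk (L.map (sm γ)) := rfl

variable [DecidableEq E]

theorem toWord_act (γ : Γ) (w : FreeGroup E) : (act Γ E γ w).toWord = w.toWord.map (sm γ) := by
  conv_lhs => rw [← mk_toWord (x := w), act_mk, toWord_mk]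
  apply FreeGroup.IsReduced.reduce_eq
  have := isReduced_toWord (x := w)
  unfold FreeGroup.IsReduced at *
  rw [List.isChain_map]
  exact this.imp fun a b h e => h (MulAction.injective γ e)

theorem path_mk {L : List (E × Bool)} {a b : V} (p : Path st a L b) : Path st a (mk L).toWord b :=
  path_red reduce.red p

/-- the group of lifts. -/
def GG (hst : ∀ (γ : Γ) x, st (sm γ x) = γ • st x) (v : V) : Subgroup (FreeGroup E ⋊[act Γ E] Γ) where
  carrier := {g | Path st v g.left.toWord (g.right • v)}
  one_mem' := by simp [Path]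
  mul_mem' {g h} hg hh := by
    show Path st v _ _
    rw [mul_left, mul_right, toWord_mul, mul_smul, toWord_act]
    exact path_red reduce.red (path_append.2 ⟨_, hg, path_smul hst _ hh⟩)
  inv_mem' {g} hg := by
    show Path st v _ _
    have := path_smul hst g.right⁻¹ (path_invRev hg)
    rwa [inv_smul_smul, ← toWord_inv, ← toWord_act] at this

theorem norm_inv_mul {x y : FreeGroup E} {e f : E × Bool} {L M : List (E × Bool)} (hx : x.toWord = e :: L)
    (hy : y.toWord = f :: M) (h : e ≠ f) : norm (x⁻¹ * y) = norm x + norm y := by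
  have : FreeGroup.IsReduced (x⁻¹.toWord ++ y.toWord) := by
    have h1 := isReduced_toWord (x := x⁻¹)
    have h2 := isReduced_toWord (x := y)
    unfold FreeGroup.IsReduced at *
    rw [List.isChain_append]
    refine ⟨h1, h2, ?_⟩
    rw [toWord_inv, hx, hy, invRev_cons]
    intro a ha b hb
    simp only [invRev, List.map_cons, List.map_nil, List.reverse_cons, List.reverse_nil, List.nil_append,
      List.getLast?_append, List.getLast?_singleton, Option.some_or, Option.mem_def, Option.some.injEq,
      List.head?_cons] at ha hb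
    subst ha hb
    intro e1
    obtain ⟨e, s⟩ := e
    obtain ⟨f, t⟩ := f
    obtain rfl : e = f := e1
    cases s <;> cases t <;> simp_all
  rw [FreeGroup.norm, toWord_mul, this.reduce_eq, List.length_append]
  exact congrArg (· + _) (norm_inv_eq (x := x))

theorem norm_act (γ : Γ) (w : FreeGroup E) : norm (act Γ E γ w) = norm w := by
  rw [FreeGroup.norm, toWord_act, List.length_map]; rfl

theorem norm_conj_le {w : FreeGroup E} {e f : E × Bool} {L M : List (E × Bool)} (h1 : w.toWord = e :: L)
    (h2 : w⁻¹.toWord = f :: M) (h : e.2 = f.2) : norm ((mk [e])⁻¹ * w * mk [f]) + 1 ≤ norm w := by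
  rw [toWord_inv, h1] at h2
  rcases List.eq_nil_or_concat L with rfl | ⟨L', l, rfl⟩
  · simp only [invRev, List.map_cons, List.map_nil, List.reverse_cons, List.reverse_nil, List.nil_append,
      List.cons.injEq] at h2
    rw [← h2.1] at h
    simp at h
  · have hf : f = (l.1, !l.2) := by
      simp only [invRev, List.concat_eq_append, List.map_cons, List.map_append, List.map_nil, List.reverse_cons,
        List.reverse_append, List.reverse_nil, List.nil_append, List.cons_append, List.cons.injEq] at h2
      exact h2.1.symm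
    have hw : w = mk [e] * mk L' * mk [l] := by
      rw [mul_mk, mul_mk, ← mk_toWord (x := w), h1]; simp
    have hl : mk [f] = (mk [l])⁻¹ := by rw [inv_mk, hf]; rfl
    have : (mk [e])⁻¹ * w * mk [f] = mk L' := by rw [hl, hw]; group
    rw [this, FreeGroup.norm.eq_1 w, h1]
    have := norm_mk_le (L₁ := L')
    simp only [List.concat_eq_append, List.length_cons, List.length_append, List.length_nil]
    omega

theorem bounded_fix (hst : ∀ (γ : Γ) x, st (sm γ x) = γ • st x) (v : V) (tr : ∀ a : V, ∃ γ : Γ, γ • v = a)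
    (D : ℕ) : ∀ H : Subgroup (FreeGroup E ⋊[act Γ E] Γ), H ≤ GG hst v → (∀ h ∈ H, norm h.left ≤ D) →
      ∃ g ∈ GG hst v, ∀ h ∈ H, (g * h * g⁻¹).left = 1 := by
  induction D with
  | zero =>
    intro H _ h2
    exact ⟨1, one_mem _, fun h hh => by simpa using h2 h hh⟩
  | succ D ih =>
    intro H h1 h2
    by_cases hex : ∃ a ∈ H, norm a.left = D + 1
    swap
    · exact ih H h1 fun h hh => Nat.le_of_lt_succ (lt_of_le_of_ne (h2 h hh) fun e => hex ⟨h, hh, e⟩)
    obtain ⟨a, ha, hD⟩ := hex
    obtain ⟨e, L, hw⟩ : ∃ e L, a.left.toWord = e :: L := by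
      cases h : a.left.toWord with
      | nil => rw [FreeGroup.norm, h] at hD; simp at hD
      | cons e L => exact ⟨e, L, rfl⟩
    have k1 : ∀ b ∈ H, b.left ≠ 1 → ∃ M, b.left.toWord = e :: M := by
      intro b hb hb1
      cases h : b.left.toWord with
      | nil => exact absurd (toWord_eq_nil_iff.1 h) hb1
      | cons f M =>
        by_cases hef : e = f
        · exact ⟨M, by rw [hef]⟩
        have h3 := h2 _ (mul_mem (inv_mem ha) hb)
        rw [mul_left, inv_left, inv_right, ← map_mul, norm_act, norm_inv_mul hw h hef, hD] at h3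
        exact absurd (FreeGroup.norm_eq_zero.1 (by omega)) hb1
    obtain ⟨δ, hδ⟩ := tr (st (e.1, !e.2))
    let g : FreeGroup E ⋊[act Γ E] Γ := ⟨mk [e], δ⟩
    have hg : g ∈ GG hst v := by
      have h3 : Path st v a.left.toWord _ := h1 ha
      rw [hw] at h3
      exact path_mk (L := [e]) ⟨h3.1, hδ.symm⟩
    have k2 : ∀ b ∈ H, norm (g⁻¹ * b * g).left ≤ D := by
      intro b hb
      have e1 : (g⁻¹ * b * g).left = act Γ E δ⁻¹ ((mk [e])⁻¹ * b.left * mk [sm b.right e]) := by
        simp only [mul_left, inv_left, inv_right, mul_right, map_mul, g, MulAut.mul_apply]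
        rfl
      rw [e1, norm_act]
      by_cases hb1 : b.left = 1
      · have h3 : (b * a).left.toWord = sm b.right e :: L.map (sm b.right) := by
          rw [mul_left, hb1, one_mul, toWord_act, hw, List.map_cons]
        obtain ⟨M, hM⟩ := k1 _ (mul_mem hb ha) fun h => by simp [h] at h3
        rw [hM] at h3
        rw [← (List.cons.inj h3).1, hb1, mul_one, inv_mul_cancel, FreeGroup.norm_one]
        exact Nat.zero_le _
      · obtain ⟨M, hM⟩ := k1 b hb hb1
        obtain ⟨M', hM'⟩ := k1 _ (inv_mem hb) (by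
          rw [inv_left, Ne, MulEquiv.map_eq_one_iff, inv_eq_one]; exact hb1)
        have h3 : b.left⁻¹.toWord = sm b.right e :: M'.map (sm b.right) := by
          rw [← List.map_cons, ← hM', ← toWord_act, inv_left, ← MulAut.mul_apply, ← map_mul, mul_inv_cancel,
            map_one, MulAut.one_apply]
        have := norm_conj_le hM h3 rfl
        have := h2 b hb
        omega
    obtain ⟨g', hg', k3⟩ := ih (H.map (MulAut.conj g⁻¹).toMonoidHom)
      (by rintro _ ⟨b, hb, rfl⟩
          exact mul_mem (mul_mem (inv_mem hg) (h1 hb)) (inv_mem (inv_mem hg)))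
      (by rintro _ ⟨b, hb, rfl⟩
          simpa using k2 b hb)
    refine ⟨g' * g⁻¹, mul_mem hg' (inv_mem hg), fun h hh => ?_⟩
    have := k3 _ ⟨h, hh, rfl⟩
    convert this using 2
    simp [mul_assoc]

theorem finite_fix (hst : ∀ (γ : Γ) x, st (sm γ x) = γ • st x) (v : V) (tr : ∀ a : V, ∃ γ : Γ, γ • v = a)
    (H : Subgroup (GG hst v)) [Finite H] : ∃ g : GG hst v, ∀ h ∈ H, (g * h * g⁻¹).1.left = 1 := by
  obtain ⟨D, hD⟩ := (Set.finite_range fun h : H => norm h.1.1.left).bddAbove
  obtain ⟨g, hg, k⟩ := bounded_fix hst v tr D (H.map (GG hst v).subtype) (Subgroup.map_subtype_le _)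
    (by rintro _ ⟨b, hb, rfl⟩; exact hD ⟨⟨b, hb⟩, rfl⟩)
  exact ⟨⟨g, hg⟩, fun h hh => k _ ⟨h, hh, rfl⟩⟩

theorem exists_perm {S P : Type*} [Group S] [Finite S] [Group P] (f g : P →* S) (hf : Function.Injective f)
    (hg : Function.Injective g) : ∃ τ : Equiv.Perm S, ∀ x s, τ (f x * s) = g x * τ s := by
  obtain ⟨T1, h1, -⟩ := f.range.exists_isComplement_right 1
  obtain ⟨T2, h2, -⟩ := g.range.exists_isComplement_right 1
  let e : f.range ≃* g.range := (MonoidHom.ofInjective hf).symm.trans (MonoidHom.ofInjective hg)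
  have hc : Nat.card T1 = Nat.card T2 := by
    have a := h1.card_mul_card
    have b := h2.card_mul_card
    have c : Nat.card (f.range : Set S) = Nat.card (g.range : Set S) := Nat.card_congr e.toEquiv
    rw [← b, c] at a
    exact Nat.eq_of_mul_eq_mul_left (Nat.card_pos (α := g.range)) a
  obtain ⟨β⟩ := Finite.card_eq.1 hc
  refine ⟨h1.equiv.trans ((e.toEquiv.prodCongr β).trans h2.equiv.symm), fun x s => ?_⟩
  have he : (e ⟨f x, x, rfl⟩ : S) = g x := by
    have : (MonoidHom.ofInjective hf).symm ⟨f x, x, rfl⟩ = x := (MonoidHom.ofInjective hf).symm_apply_eq.2 rfl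
    simp only [e, MulEquiv.trans_apply, this]; rfl
  simp only [Equiv.trans_apply]
  rw [h1.equiv_mul_left_of_mem ⟨x, rfl⟩, Equiv.symm_apply_eq, ← he, h2.equiv_mul_left, Equiv.apply_symm_apply]
  exact Prod.ext (map_mul e _ _) rfl

end Cfsg.Agent.LSt
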