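import Cfsg.Prelude.Def_FusionSystem
import Cfsg.Agent.LSt.A

/-! The Leary–Stancu realization of a fusion system by a virtually free group. -/

set_option autoImplicit false

namespace Cfsg.Agent.LSt
open FreeGroup hiding map_mul map_one map_inv IsReduced
open SemidirectProduct

universe u
variable {Ω : Type u} [Group Ω] {S : Subgroup Ω} (F : Cfsg.FusionSystem S)

variable (S) in
def lam : S →* Equiv.Perm S := MulAction.toPermHom S S

theorem lam_inj : Function.Injective (lam S) := MulAction.toPerm_injective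

abbrev Ix : Type u := Σ P : Subgroup Ω, F.Hom P

variable {F}

def Ix.src (i : Ix F) : i.1 →* S := Subgroup.inclusion (F.le_of_mem i.2.2).1
def Ix.tgt (i : Ix F) : i.1 →* S := i.2.1.codRestrict S (F.le_of_mem i.2.2).2
def Ix.Q (i : Ix F) : Subgroup (Equiv.Perm S) := ((lam S).comp i.tgt).range

theorem Ix.exists_tau [Finite S] (i : Ix F) :
    ∃ τ : Equiv.Perm S, ∀ x, lam S (i.tgt x) = τ * lam S (i.src x) * τ⁻¹ := by
  obtain ⟨τ, h⟩ := exists_perm i.src i.tgt (Subgroup.inclusion_injective _)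
    ((MonoidHom.injective_codRestrict _ _ _).2 (F.injective_of_mem i.2.2))
  refine ⟨τ, fun x => ?_⟩
  rw [eq_mul_inv_iff_mul_eq]
  exact Equiv.ext fun s => (h x s).symm

noncomputable def Ix.tau [Finite S] (i : Ix F) : Equiv.Perm S := i.exists_tau.choose

theorem Ix.tau_spec [Finite S] (i : Ix F) (x : i.1) : lam S (i.tgt x) = i.tau * lam S (i.src x) * i.tau⁻¹ :=
  i.exists_tau.choose_spec x

variable (F) in
abbrev Ed : Type u := Σ i : Ix F, Equiv.Perm S ⧸ i.Q

variable (S) in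
abbrev Vx : Type u := Equiv.Perm S ⧸ (lam S).range

noncomputable def st [Finite S] (x : Ed F × Bool) : Vx S :=
  Quotient.liftOn' x.1.2 (fun δ => ((δ * bif x.2 then 1 else x.1.1.tau : Equiv.Perm S) : Vx S)) (by
    obtain ⟨⟨i, q⟩, b⟩ := x
    intro a c h
    obtain ⟨y, hy⟩ := QuotientGroup.leftRel_apply.1 h
    have hy : lam S (i.tgt y) = a⁻¹ * c := hy
    rw [QuotientGroup.eq]
    cases b
    · refine ⟨i.src y, ?_⟩
      have : c = a * (i.tau * lam S (i.src y) * i.tau⁻¹) := by rw [← i.tau_spec, hy]; group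
      simp only [cond_false]
      rw [this]; group
    · exact ⟨i.tgt y, by simpa using hy⟩)

theorem st_mk [Finite S] (i : Ix F) (δ : Equiv.Perm S) (b : Bool) :
    st ((⟨i, δ⟩ : Ed F), b) = ((δ * bif b then 1 else i.tau : Equiv.Perm S) : Vx S) := rfl

theorem hst [Finite S] (γ : Equiv.Perm S) (x : Ed F × Bool) : st (sm γ x) = γ • st x := by
  obtain ⟨⟨i, q⟩, b⟩ := x
  induction q using QuotientGroup.induction_on with
  | H δ =>
    show st ((⟨i, ((γ * δ : Equiv.Perm S) : _ ⧸ _)⟩ : Ed F), b) = _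
    rw [st_mk, st_mk, mul_assoc]; rfl

variable (F) in
/-- read in the frame `α`, `ρ` is a map of the system. -/
def Fr {P : Subgroup Ω} (ρ : P → Equiv.Perm S) (α : Equiv.Perm S) : Prop :=
  ∃ φ ∈ F.Hom P, ∃ h : ∀ x, φ x ∈ S, ∀ x, ρ x = α * lam S ⟨φ x, h x⟩ * α⁻¹

variable {P : Subgroup Ω} {ρ : P → Equiv.Perm S}

theorem Fr.frame {α β : Equiv.Perm S} (e : (α : Vx S) = β) (h : Fr F ρ α) : Fr F ρ β := by
  obtain ⟨φ, h1, h2, h3⟩ := h
  obtain ⟨s, hs⟩ := QuotientGroup.eq.1 e
  refine ⟨_, F.comp_mem h1 (F.conj_mem le_rfl (inv_mem s.2)) h2,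
    fun x => (s⁻¹ * (⟨φ x, h2 x⟩ : S) * s⁻¹⁻¹).2, fun x => ?_⟩
  show _ = β * lam S (s⁻¹ * ⟨φ x, h2 x⟩ * s⁻¹⁻¹) * β⁻¹
  rw [h3, map_mul, map_mul, map_inv, map_inv, map_inv, hs]; group

theorem Fr.edge [Finite S] (i : Ix F) (δ : Equiv.Perm S) (h : ∀ x, δ⁻¹ * ρ x * δ ∈ i.Q) :
    Fr F ρ δ ↔ Fr F ρ (δ * i.tau) := by
  choose y hy using h
  have hy : ∀ x, lam S (i.tgt (y x)) = δ⁻¹ * ρ x * δ := hy
  constructor
  · rintro ⟨φ, h1, h2, h3⟩
    have e : ∀ x, φ x = i.2.1 (y x) := fun x =>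
      congrArg Subtype.val (lam_inj (a₁ := ⟨φ x, h2 x⟩) (a₂ := i.tgt (y x)) (by rw [hy, h3]; group))
    obtain ⟨ψ, k1, k2⟩ := F.inv_mem i.2.2
    have k3 := F.comp_mem h1 k1 fun x => ⟨y x, (e x).symm⟩
    refine ⟨_, k3, (F.le_of_mem k3).2, fun x => ?_⟩
    have : (⟨_, (F.le_of_mem k3).2 x⟩ : S) = i.src (y x) := by
      apply Subtype.ext
      refine Eq.trans ?_ (k2 (y x))
      exact congrArg ψ (Subtype.ext (e x))
    rw [this]
    have := hy x
    rw [i.tau_spec] at this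
    calc ρ x = δ * (δ⁻¹ * ρ x * δ) * δ⁻¹ := by group
      _ = _ := by rw [← this]; group
  · rintro ⟨φ, h1, h2, h3⟩
    have e : ∀ x, φ x = y x := fun x =>
      congrArg Subtype.val (lam_inj (a₁ := ⟨φ x, h2 x⟩) (a₂ := i.src (y x)) (by
        have := hy x
        rw [i.tau_spec, h3] at this
        calc _ = i.tau⁻¹ * (δ⁻¹ * (δ * i.tau * lam S ⟨φ x, h2 x⟩ * (δ * i.tau)⁻¹) * δ) * i.tau := by group
          _ = _ := by rw [← this]; group))
    have k3 := F.comp_mem h1 i.2.2 fun x => e x ▸ (y x).2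
    refine ⟨_, k3, (F.le_of_mem k3).2, fun x => ?_⟩
    have : (⟨_, (F.le_of_mem k3).2 x⟩ : S) = i.tgt (y x) :=
      Subtype.ext (congrArg i.2.1 (Subtype.ext (e x)))
    rw [this, hy]; group

theorem Fr.path [Finite S] (L : List (Ed F × Bool)) : ∀ {α β : Equiv.Perm S},
    Path st (α : Vx S) L β → (∀ y ∈ L, ∀ x, ρ x • y.1 = y.1) → Fr F ρ β → Fr F ρ α := by
  induction L with
  | nil => intro α β h _; exact Fr.frame h.symm
  | cons y L ih =>
    obtain ⟨⟨i, q⟩, b⟩ := y
    induction q using QuotientGroup.induction_on with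
    | H δ =>
      rintro α β ⟨h1, h2⟩ h3 h4
      have h5 := ih (α := δ * bif !b then 1 else i.tau) h2 (fun y hy => h3 y (List.mem_cons_of_mem _ hy)) h4
      have h6 : ∀ x, δ⁻¹ * ρ x * δ ∈ i.Q := fun x => by
        have := h3 _ List.mem_cons_self x
        have : ((ρ x * δ : Equiv.Perm S) : _ ⧸ i.Q) = δ := eq_of_heq (Sigma.mk.inj this).2
        rw [mul_assoc]
        exact QuotientGroup.eq.1 this.symm
      refine Fr.frame h1.symm ?_
      cases b
      · exact (Fr.edge i δ h6).1 (by simpa using h5)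
      · simpa using (Fr.edge i δ h6).2 h5

theorem main [Finite S] (F : Cfsg.FusionSystem S) : ∃ (G : Type u) (_ : Group G) (ι : ↥S →* G),
    F.IsRealizedBy ι ∧ (∀ H : Subgroup G, Finite ↥H → ∃ g : G, ∀ h ∈ H, g * h * g⁻¹ ∈ ι.range) ∧
      ∃ N : Subgroup G, N.Normal ∧ IsFreeGroup ↥N ∧ N.index ∣ (Nat.card ↥S).factorial := by
  classical
  let v : Vx S := ((1 : Equiv.Perm S) : Vx S)
  have hv : ∀ γ : Equiv.Perm S, γ • v = (γ : Vx S) := fun γ => congrArg _ (mul_one γ)
  let G := GG (hst (F := F)) v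
  let ι : S →* G := (inr.comp (lam S)).codRestrict G fun s => by
    show Path (st (F := F)) v (toWord 1) (lam S s • v)
    rw [toWord_one, hv]
    exact QuotientGroup.eq.2 ⟨s, by simp⟩
  have hι : ∀ s, (ι s).1 = inr (lam S s) := fun _ => rfl
  refine ⟨G, inferInstance, ι, ⟨fun a b h => lam_inj (inr_injective (congrArg Subtype.val h)), ?_⟩, ?_,
    (rightHom.comp G.subtype).ker, inferInstance, ?_, ?_⟩
  · intro P hP φ hφ
    constructor
    · intro h
      let i : Ix F := ⟨P, φ, h⟩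
      let e : Ed F := ⟨i, ((1 : Equiv.Perm S) : _ ⧸ _)⟩
      refine ⟨⟨⟨mk [(e, true)], i.tau⟩, path_mk (L := [(e, true)]) ⟨?_, ?_⟩⟩, fun x => Subtype.ext ?_⟩
      · exact congrArg _ (mul_one _).symm
      · rw [hv]; exact congrArg _ (one_mul _)
      · rw [Subgroup.coe_mul, Subgroup.coe_mul, Subgroup.coe_inv, eq_mul_inv_iff_mul_eq, hι, hι]
        have h1 : lam S ⟨φ x, hφ x⟩ • e = e := by
          refine congrArg (Sigma.mk i) (QuotientGroup.eq.2 ?_)
          exact ⟨x⁻¹, by rw [map_inv, mul_one]; exact congrArg _ (mul_one _).symm⟩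
        refine SemidirectProduct.ext ?_ ?_
        · simp only [mul_left, left_inr, right_inr, one_mul, map_one, mul_one, act_mk, List.map_cons,
            List.map_nil, sm, h1]
        · exact eq_mul_inv_iff_mul_eq.1 (i.tau_spec x)
    · rintro ⟨⟨g, hg⟩, h⟩
      have h1 : ∀ x : P, inr (lam S ⟨φ x, hφ x⟩) * g = g * inr (lam S ⟨x, hP x.2⟩) := fun x =>
        eq_mul_inv_iff_mul_eq.1 (congrArg Subtype.val (h x))
      have h2 : Path st v g.left.toWord (g.right • v) := hg
      rw [hv] at h2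
      obtain ⟨ψ, k1, k2, k3⟩ := Fr.path (F := F) (ρ := fun x => lam S ⟨φ x, hφ x⟩) _ h2 (fun y hy x => by
        have h3 := congrArg (fun z => toWord (SemidirectProduct.left z)) (h1 x)
        simp only [mul_left, left_inr, right_inr, one_mul, map_one, mul_one, toWord_act] at h3
        exact congrArg Prod.fst (List.map_inj_left.1 (h3.trans (List.map_id _).symm) y hy))
        ⟨_, F.conj_mem hP (one_mem _), fun x => by simpa [conjHom] using hP x.2, fun x => by
          have h3 := congrArg SemidirectProduct.right (h1 x)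
          simp only [mul_right, right_inr] at h3
          rw [eq_mul_inv_iff_mul_eq, h3]
          congr 2
          simp [conjHom]⟩
      have : φ = ψ := MonoidHom.ext fun x =>
        congrArg Subtype.val (lam_inj (a₁ := ⟨φ x, hφ x⟩) (a₂ := ⟨ψ x, k2 x⟩) (by simpa using k3 x))
      exact this ▸ k1
  · intro H _
    obtain ⟨g, hg⟩ := finite_fix hst v (fun a => by
      obtain ⟨γ, rfl⟩ := QuotientGroup.mk_surjective a
      exact ⟨γ, hv γ⟩) H
    refine ⟨g, fun h hh => ?_⟩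
    have h2 : Path st v _ _ := (g * h * g⁻¹).2
    rw [hg h hh, toWord_one, hv] at h2
    obtain ⟨s, hs⟩ := QuotientGroup.eq.1 h2
    refine ⟨s, Subtype.ext (SemidirectProduct.ext (hg h hh).symm ?_)⟩
    rw [inv_one, one_mul] at hs
    exact hs
  · let f : G.comap inl →* (rightHom.comp G.subtype).ker :=
      ((inl.comp (G.comap inl).subtype).codRestrict G fun x => x.2).codRestrict _ fun x => rfl
    refine IsFreeGroup.ofMulEquiv (MulEquiv.ofBijective f ⟨fun a b h => ?_, ?_⟩)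
    · exact Subtype.ext (inl_injective (congrArg (fun z => z.1.1) h))
    · rintro ⟨⟨g, hg⟩, h⟩
      have e : inl g.left = g := SemidirectProduct.ext rfl (Eq.symm h)
      exact ⟨⟨g.left, by rw [Subgroup.mem_comap, e]; exact hg⟩, Subtype.ext (Subtype.ext e)⟩
  · rw [Subgroup.index_ker, ← Nat.card_perm]
    exact Subgroup.card_subgroup_dvd_card _

end Cfsg.Agent.LSt
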